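import Cfsg.Agent.Lib.R3.Ident

/-!
# Rank three groups with a Frobenius constituent: the theorem
-/

set_option autoImplicit false

namespace Cfsg.Agent.R3

open Subgroup MulAction Pointwise

universe u v

theorem equiv_trivial {G : Type u} [Group G] {X : Type v} [MulAction G X] [IsPreprimitive G X]
    (R : X → X → Prop) (hr : ∀ x, R x x) (hs : ∀ x y, R x y → R y x)
    (ht : ∀ x y z, R x y → R y z → R x z) (hi : ∀ (g : G) x y, R x y → R (g • x) (g • y))
    {a b c : X} (hb : R a b) (hab : a ≠ b) : R a c := by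
  have hB : IsBlock G {y | R a y} := isBlock_iff_smul_eq_of_mem.2 fun g x hx hgx => by
    have h1 : R a (g • a) := ht _ _ _ hgx (hi g _ _ (hs _ _ hx))
    ext y
    rw [Set.mem_smul_set_iff_inv_smul_mem]
    exact ⟨fun hy => ht _ _ _ h1 (by simpa using hi g _ _ hy),
      fun hy => by simpa using hi g⁻¹ _ _ (ht _ _ _ (hs _ _ h1) hy)⟩
  rcases hB.subsingleton_or_eq_univ with h | h
  · exact absurd (h (hr a) hb) hab
  · exact (h ▸ Set.mem_univ c : c ∈ {y | R a y})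

theorem card_three {Q : Type u} (h : Nat.card Q = 3) {a b : Q} (hab : a ≠ b) :
    ∃ c, ∀ x, x ≠ a ∧ x ≠ b ↔ x = c := by
  have : Finite Q := Nat.finite_of_card_ne_zero (by omega)
  have := Fintype.ofFinite Q
  rw [Nat.card_eq_fintype_card, ← cnt_true, cnt_erase (a := a) trivial,
    cnt_erase (a := b) ⟨trivial, hab.symm⟩] at h
  obtain ⟨c, hc⟩ := cnt_pos.1 (show 0 < cnt (fun x => (True ∧ x ≠ a) ∧ x ≠ b) by omega)
  refine ⟨c, fun x => ⟨fun hx => ?_, fun e => e ▸ ⟨hc.1.2, hc.2⟩⟩⟩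
  by_contra hne
  have := two_le_cnt (p := fun x => (True ∧ x ≠ a) ∧ x ≠ b) hne ⟨⟨trivial, hx.1⟩, hx.2⟩ hc
  omega

theorem main {G : Type u} {X : Type v} [Group G] [Finite G] [Fintype X] [MulAction G X]
    [FaithfulSMul G X] (heven : Even (Nat.card G)) (hprim : IsPreprimitive G X) (A : X)
    (h3 : Nat.card (orbitRel.Quotient (stabilizer G A) X) = 3) (B : X) (hBA : B ≠ A)
    (hfix : ∃ g ∈ stabilizer G A, g ≠ 1 ∧ g • B = B)
    (hfrob : ∀ g ∈ stabilizer G A, ∀ h ∈ stabilizer G A, g • B = B → g • (h • B) = h • B →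
      h • B ≠ B → g = 1) :
    (Nonempty (G ≃* alternatingGroup (Fin 5)) ∧ Fintype.card X = 10) ∨
    (Group.IsSolvable G ∧ ∃ N : Subgroup G, N.Normal ∧ Nat.card N = 16 ∧
      ∀ x y : X, ∃! n : N, (n : G) • x = y) := by
  have := Fintype.ofFinite G
  set adj : X → X → Prop := fun x y => ∃ g : G, g • A = x ∧ g • B = y with hadj
  have hsm : ∀ (g : G) {x y}, adj x y → adj (g • x) (g • y) := by
    rintro g _ _ ⟨a, rfl, rfl⟩
    exact ⟨g * a, mul_smul _ _ _, mul_smul _ _ _⟩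
  have hsm' : ∀ (g : G) {x y}, adj (g • x) (g • y) → adj x y := fun g x y e => by
    simpa using hsm g⁻¹ e
  have hirr : ∀ x, ¬ adj x x := fun x ⟨g, h1, h2⟩ => hBA (MulAction.injective g (h2.trans h1.symm))
  have hq : ∀ x y : X, (Quotient.mk (orbitRel (stabilizer G A) X) x = Quotient.mk _ y) ↔
      ∃ g : G, g • A = A ∧ g • y = x := fun x y => by
    rw [Quotient.eq, orbitRel_apply]
    exact ⟨fun ⟨g, hg⟩ => ⟨g, g.2, hg⟩, fun ⟨g, h1, h2⟩ => ⟨⟨g, h1⟩, h2⟩⟩
  obtain ⟨c, hc⟩ := card_three h3 (a := Quotient.mk _ A) (b := Quotient.mk _ B) fun e => by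
    obtain ⟨g, h1, h2⟩ := (hq _ _).1 e
    exact hirr A ⟨g, h1, h2⟩
  obtain ⟨C, rfl⟩ := Quotient.exists_rep c
  have hC : ∀ y, A ≠ y ∧ ¬ adj A y ↔ ∃ g : G, g • A = A ∧ g • C = y := fun y => by
    rw [← hq, ← hc, Ne, Ne, Ne, hq, hq]
    exact and_congr_left' (not_congr ⟨fun e => ⟨1, one_smul _ _, by rw [one_smul, e]⟩,
      fun ⟨g, h1, h2⟩ => h1.symm.trans h2⟩)
  have hC' : ∀ x y, x ≠ y → ¬ adj x y → ∃ g : G, g • A = x ∧ g • C = y := fun x y h1 h2 => by
    obtain ⟨g, rfl⟩ := exists_smul_eq G A x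
    obtain ⟨a, e1, e2⟩ := (hC (g⁻¹ • y)).1 ⟨fun e => h1 (by rw [e, smul_inv_smul]),
      fun e => h2 (by simpa using hsm g e)⟩
    exact ⟨g * a, by rw [mul_smul, e1], by rw [mul_smul, e2, smul_inv_smul]⟩
  have htr1 : ∀ {x y x' y'}, adj x y → adj x' y' → ∃ g : G, g • x = x' ∧ g • y = y' := by
    rintro _ _ _ _ ⟨a, rfl, rfl⟩ ⟨b, rfl, rfl⟩
    exact ⟨b * a⁻¹, by simp [mul_smul], by simp [mul_smul]⟩
  have htr2 : ∀ {x y x' y'}, x ≠ y → ¬ adj x y → x' ≠ y' → ¬ adj x' y' →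
      ∃ g : G, g • x = x' ∧ g • y = y' := by
    intro x y x' y' h1 h2 h3 h4
    obtain ⟨a, rfl, rfl⟩ := hC' x y h1 h2
    obtain ⟨b, rfl, rfl⟩ := hC' x' y' h3 h4
    exact ⟨b * a⁻¹, by simp [mul_smul], by simp [mul_smul]⟩
  have hsymm : ∀ {x y}, adj x y → adj y x := by
    obtain ⟨t, -, ht⟩ := exists_iv (S := (⊤ : Subgroup G)) (by rwa [card_top])
    obtain ⟨x, hx⟩ : ∃ x : X, t • x ≠ x := by
      by_contra hcon
      push Not at hcon
      exact ht.2 (eq_of_smul_eq_smul (α := X) fun x => by rw [hcon, one_smul])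
    intro u v huv
    by_cases h1 : adj x (t • x)
    · obtain ⟨g, rfl, rfl⟩ := htr1 h1 huv
      exact hsm g (by simpa [invol_smul ht.1] using hsm t h1)
    · by_contra h2
      obtain ⟨g, rfl, rfl⟩ := htr2 hx.symm h1 (fun e => hirr u (by rwa [e] at huv)) h2
      exact h1 (hsm' t (by simpa [invol_smul ht.1] using hsm' g huv))
  have hAC := (hC C).2 ⟨1, one_smul _ _, one_smul _ _⟩
  have hAB : adj A B := ⟨1, one_smul _ _, one_smul _ _⟩
  have hRK : RK G adj :=
    { symm := hsymm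
      irr := hirr
      smul := hsm
      tr0 := exists_smul_eq G
      tr1 := htr1
      tr2 := htr2
      semi := by
        rintro g _ _ z ⟨a, rfl, rfl⟩ ⟨b, h1, rfl⟩ hne e1 e2 e3
        have := hfrob (a⁻¹ * g * a) (by
          rw [mem_stabilizer_iff, mul_smul, mul_smul, e1, inv_smul_smul]) (a⁻¹ * b) (by
          rw [mem_stabilizer_iff, mul_smul, h1, inv_smul_smul])
          (by rw [mul_smul, mul_smul, e2, inv_smul_smul])
          (by rw [mul_smul, mul_smul, mul_smul, smul_inv_smul, e3])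
          (fun e => hne (by rw [mul_smul, inv_smul_eq_iff] at e; exact e.symm))
        calc g = a * (a⁻¹ * g * a) * a⁻¹ := by group
          _ = 1 := by rw [this]; group
      nontriv := let ⟨g, h1, h2, h3⟩ := hfix; ⟨g, A, B, h2, hAB, h1, h3⟩
      exfar := ⟨A, C, hAC⟩
      prim := by
        intro x y h1 h2
        by_contra hcon
        push Not at hcon
        refine equiv_trivial (G := G) (fun x y => ¬ adj x y) hirr (fun _ _ e e' => e (hsymm e'))
          (fun u v w e1 e2 e3 => ?_) (fun g _ _ e e' => e (hsm' g e')) hAC.2 hAC.1 hAB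
        by_cases huv : v = u
        · exact e2 (huv ▸ e3)
        obtain ⟨g, rfl, rfl⟩ := htr2 h1 h2 huv fun e => e1 (hsymm e)
        exact e2 (by simpa using hsm g (hcon (g⁻¹ • w) (by simpa using hsm g⁻¹ e3))) }
  obtain ⟨k, l, c, d, lam, mu, h⟩ := hRK.exists_par
  refine PA.final (h := ⟨h, h.even_c heven, Nat.pos_of_ne_zero fun e => ?_⟩)
  refine (equiv_trivial (G := G) (fun x y => x = y ∨ adj x y) (fun _ => Or.inl rfl)
    (fun _ _ e => e.imp Eq.symm hsymm) ?_ (fun g _ _ e => e.imp (congrArg _) (hsm g))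
    (Or.inr hAB) hBA.symm).elim hAC.1 hAC.2
  rintro x y z (rfl | h1) (rfl | h2)
  · exact Or.inl rfl
  · exact Or.inr h2
  · exact Or.inr h1
  · by_contra hcon
    push Not at hcon
    exact (cnt_pos.2 ⟨y, h1, hsymm h2⟩).ne' ((h.hmu hcon.1 hcon.2).trans e)

end Cfsg.Agent.R3
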